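import Mathlib
import Cfsg.Agent.Lib.Helper50.HUPT.Defs

/-!
# HUPT (S3360), package [PPDA]: an element of primitive prime divisor order acts irreducibly.
-/

set_option autoImplicit false

namespace Cfsg.Agent.Lib.Helper20.HUPT

open Cfsg.Agent.Lib.Helper49.HUP (Irr)
open Cfsg.Agent.Lib.Helper50.HUPT

universe u v

theorem pkgPpdA (hCnt : PkgCnt.{u}) : PkgPpdA.{u, v} := by
  intro q _ V _ _ _ _ G _ _ ρ hinj n p hn hcard hppd x hx W hW
  have hq : q.Prime := Fact.out
  have hpp : p.Prime := hppd.1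
  have hxW : ∀ v ∈ W, ρ x v ∈ W := fun v hv => hW x (Subgroup.mem_zpowers x) v hv
  have hpow : ∀ j : ℕ, ∀ v : V, (⇑(ρ x))^[j] v = ρ (x ^ j) v := by
    intro j
    induction j with
    | zero =>
      intro v
      simp
    | succ j ih =>
      intro v
      rw [Function.iterate_succ_apply', ih, pow_succ', map_mul]
      rfl
  have hxp : x ^ p = 1 := by
    rw [← hx]
    exact pow_orderOf_eq_one x
  have hiter : ∀ v : V, (⇑(ρ x))^[p] v = v := by
    intro v
    rw [hpow, hxp, map_one]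
    rfl
  have hdvd : Nat.card W ∣ q ^ n := by
    rw [← hcard]
    exact AddSubgroup.card_addSubgroup_dvd_card W.toAddSubgroup
  obtain ⟨k, hk, hWk⟩ := (Nat.dvd_prime_pow hq).mp hdvd
  obtain ⟨φW, hφW⟩ : ∃ φW : ↥W →+ ↥W, ∀ u : ↥W, ((φW u : ↥W) : V) = ρ x (u : V) :=
    ⟨(((ρ x : V ≃ₗ[ZMod q] V) : V →ₗ[ZMod q] V).restrict hxW).toAddMonoidHom, fun u => rfl⟩
  have hφWiter : ∀ j : ℕ, ∀ u : ↥W, (((⇑φW)^[j] u : ↥W) : V) = (⇑(ρ x))^[j] (u : V) := by
    intro j
    induction j with
    | zero =>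
      intro u
      rfl
    | succ j ih =>
      intro u
      rw [Function.iterate_succ_apply', Function.iterate_succ_apply', hφW, ih]
  rcases hCnt hppd φW k hk hWk (fun u => Subtype.ext (by rw [hφWiter, hiter])) with h1 | ⟨h1, -⟩
  · left
    obtain ⟨φV, hφV⟩ : ∃ φV : V →+ V, ∀ u : V, φV u = ρ x u :=
      ⟨((ρ x : V ≃ₗ[ZMod q] V) : V →ₗ[ZMod q] V).toAddMonoidHom, fun u => rfl⟩
    have hφViter : ∀ u : V, (⇑φV)^[p] u = u := by
      intro u
      have hfun : (⇑φV) = ⇑(ρ x) := funext hφV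
      rw [hfun]
      exact hiter u
    rcases hCnt hppd φV n le_rfl hcard hφViter with h2 | ⟨-, h2⟩
    · exfalso
      have h3 : ρ x = ρ 1 := by
        rw [map_one]
        ext u
        rw [← hφV, h2]
        rfl
      have hx1 : x = 1 := hinj h3
      rw [hx1, orderOf_one] at hx
      exact hpp.one_lt.ne' hx.symm
    · rw [Submodule.eq_bot_iff]
      intro w hw
      apply h2
      rw [hφV]
      have h3 := congrArg Subtype.val (h1 ⟨w, hw⟩)
      rw [hφW] at h3
      exact h3
  · right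
    have hWV : Nat.card W.toAddSubgroup = Nat.card V := by
      rw [hcard, ← h1]
      exact hWk
    have htop := AddSubgroup.eq_top_of_card_eq W.toAddSubgroup hWV
    rw [Submodule.eq_top_iff']
    intro v
    have hv : v ∈ W.toAddSubgroup := by
      rw [htop]
      trivial
    exact hv

end Cfsg.Agent.Lib.Helper20.HUPT
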